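import Mathlib
import Cfsg.Agent.H183.HgHeis
import Cfsg.Agent.H486.HgBase
import Cfsg.Agent.LieClassical.SUBasic
import Cfsg.Agent.SporadicA.M11Sylow
import Cfsg.Agent.SectRankFour.AutM11
import Cfsg.Agent.StandardComponent.AltAut

/-!
# Small groups for S3923: `PSU₃(8)`, `PSU₃(4)`, `A₇`, `M₁₁` (helper183)
-/

set_option autoImplicit false

namespace Cfsg.Agent.H183.HgSmall

open Matrix Cfsg.Agent.LieClassical Cfsg.Agent.LieClassical.SUBasic Cfsg.Agent.H183.HgHeis Equiv

section Units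
variable {F : Type*} [Field F] [Fintype F]

theorem exists_root (r m : ℕ) (hF : Fintype.card F = r * m + 1) : ∃ z : F, orderOf z = r := by
  classical
  obtain ⟨g, hg⟩ := IsCyclic.exists_generator (α := Fˣ)
  have h1 : orderOf g = r * m := by
    rw [orderOf_eq_card_of_forall_mem_zpowers hg, Nat.card_eq_fintype_card, Fintype.card_units, hF, Nat.add_sub_cancel]
  have hm : m ≠ 0 := by
    rintro rfl
    have := Fintype.one_lt_card (α := F)
    rw [hF] at this
    simp at this
  refine ⟨((g ^ m : Fˣ) : F), ?_⟩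
  rw [orderOf_units, orderOf_pow, h1, Nat.gcd_eq_right (Dvd.intro_left r rfl), Nat.mul_div_cancel _ (Nat.pos_of_ne_zero hm)]

end Units

section Eight
variable {F : Type*} [Field F]

open Cfsg.Agent.LieClassical.HermSiegel in
theorem suDiag_pow {q : ℕ} {a : Fin 3 → F} (ha : ∏ i, a i = 1) (ha' : ∀ i, a i ^ (q + 1) = 1) {n : ℕ}
    (h : ∀ i, a i ^ n = 1) : suDiag q a ha ha' ^ n = 1 := by
  apply mat_injective
  rw [mat_pow, mat_one]
  change diagonal a ^ n = 1
  rw [diagonal_pow, ← diagonal_one]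
  congr 1
  funext i
  exact h i

theorem perm_eq : (finRotate 3).permMatrix F = !![0, 1, 0; 0, 0, 1; 1, 0, 0] := by
  ext i j
  rw [Equiv.Perm.permMatrix, PEquiv.toMatrix_apply, Equiv.toPEquiv_apply]
  fin_cases i <;> fin_cases j <;> simp

variable [Fintype F]

open Cfsg.Agent.LieClassical.HermSiegel in
theorem psu_eight (hF : Fintype.card F = 64) : HasHeis 3 (PSU 3 F 8) := by
  obtain ⟨z, hz⟩ := exists_root (F := F) 9 7 (by rw [hF])
  have hz9 : z ^ 9 = 1 := by rw [← hz]; exact pow_orderOf_eq_one z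
  have hz3 : z ^ 3 ≠ 1 := by
    intro h
    have := orderOf_dvd_of_pow_eq_one h
    rw [hz] at this
    exact absurd (Nat.le_of_dvd (by norm_num) this) (by norm_num)
  have hk : ∀ k : ℕ, (z ^ k) ^ 9 = 1 := fun k => by rw [← pow_mul, mul_comm, pow_mul, hz9, one_pow]
  have hσ : Equiv.Perm.sign (finRotate 3) = 1 := by decide
  -- y = diag(z, z^7, z), c = diag(1, z^3, z^6), w the 3-cycle, S = z^3
  have py : ∏ i, (![z, z ^ 7, z] : Fin 3 → F) i = 1 := by
    simp only [Fin.prod_univ_three, cons_val_zero, cons_val_one, cons_val]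
    linear_combination hz9
  have qy : ∀ i, (![z, z ^ 7, z] : Fin 3 → F) i ^ (8 + 1) = 1 := by
    intro i; fin_cases i
    · exact hz9
    · exact hk 7
    · exact hz9
  have pc : ∏ i, (![1, z ^ 3, z ^ 6] : Fin 3 → F) i = 1 := by
    simp only [Fin.prod_univ_three, cons_val_zero, cons_val_one, cons_val]
    linear_combination hz9
  have qc : ∀ i, (![1, z ^ 3, z ^ 6] : Fin 3 → F) i ^ (8 + 1) = 1 := by
    intro i; fin_cases i
    · exact one_pow _
    · exact hk 3
    · exact hk 6
  have pS : ∏ i, (fun _ => z ^ 3 : Fin 3 → F) i = 1 := by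
    simp only [Fin.prod_univ_three]
    linear_combination hz9
  have qS : ∀ i, (fun _ => z ^ 3 : Fin 3 → F) i ^ (8 + 1) = 1 := fun i => hk 3
  set y : SU 3 F 8 := suDiag 8 ![z, z ^ 7, z] py qy with hy
  set c : SU 3 F 8 := suDiag 8 ![1, z ^ 3, z ^ 6] pc qc with hc
  set S : SU 3 F 8 := suDiag 8 (fun _ => z ^ 3) pS qS with hS
  set w : SU 3 F 8 := suPerm 8 (finRotate 3) hσ with hw
  have my : mat y = diagonal ![z, z ^ 7, z] := rfl
  have mc : mat c = diagonal ![1, z ^ 3, z ^ 6] := rfl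
  have mS : mat S = diagonal (fun _ => z ^ 3) := rfl
  have mw : mat w = !![0, 1, 0; 0, 0, 1; 1, 0, 0] := perm_eq
  have hScen : S ∈ Subgroup.center (SU 3 F 8) := by
    rw [Subgroup.mem_center_iff]
    intro g
    apply mat_injective
    rw [mat_mul, mat_mul, mS]
    ext i j
    rw [mul_diagonal, diagonal_mul, mul_comm]
  let π := QuotientGroup.mk' (Subgroup.center (SU 3 F 8))
  have hπS : π S = 1 := (QuotientGroup.eq_one_iff S).mpr hScen
  have e1 : y * w = w * y * c := by
    apply mat_injective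
    rw [mat_mul, mat_mul, mat_mul, my, mw, mc]
    ext i j
    rw [diagonal_mul, mul_diagonal, mul_diagonal]
    fin_cases i <;> fin_cases j <;> simp
    · linear_combination (-z) * hz9
    · ring
  have e2 : w * c = c * w * S := by
    apply mat_injective
    rw [mat_mul, mat_mul, mat_mul, mw, mc, mS]
    ext i j
    rw [mul_diagonal, mul_diagonal, diagonal_mul]
    fin_cases i <;> fin_cases j <;> simp
    · ring
    · linear_combination (-1) * hz9
  have e3 : y * c = c * y := by
    apply mat_injective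
    rw [mat_mul, mat_mul, my, mc, diagonal_mul_diagonal, diagonal_mul_diagonal]
    congr 1
    funext i
    exact mul_comm _ _
  have e4 : w ^ 3 = 1 := by
    apply mat_injective
    rw [mat_pow, mw, mat_one, pow_succ, pow_two]
    ext i j
    fin_cases i <;> fin_cases j <;> simp [Matrix.mul_apply, Fin.sum_univ_three]
  refine ⟨π y, π w, π c, 2, 1, 1, ?_, ?_, ?_, ?_, ?_, ?_, ?_⟩
  · rw [← map_pow, suDiag_pow py qy (n := 3 ^ 2) (by intro i; exact qy i), map_one]
  · rw [← map_pow, pow_one, e4, map_one]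
  · rw [← map_pow, suDiag_pow pc qc (n := 3 ^ 1), map_one]
    intro i; fin_cases i
    · exact one_pow _
    · change (z ^ 3) ^ 3 = 1
      rw [← pow_mul]; exact hz9
    · change (z ^ 6) ^ 3 = 1
      rw [← pow_mul, show 6 * 3 = 9 * 2 from rfl, pow_mul, hz9, one_pow]
  · rw [← map_mul, e3, map_mul]
  · rw [← map_mul, e2, map_mul, hπS, mul_one, map_mul]
  · rw [← map_mul, e1, map_mul, map_mul]
  · intro h
    have h1 : c ∈ Subgroup.center (SU 3 F 8) := (QuotientGroup.eq_one_iff c).mp h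
    have h2 := diag_eq (le_refl 3) h1 0 1
    change diagonal _ 0 0 = diagonal _ 1 1 at h2
    rw [diagonal_apply_eq, diagonal_apply_eq] at h2
    exact hz3 h2.symm

end Eight

section Four

/-- cyclic Sylow subgroups: commuting elements of order `p` are powers of each other -/
theorem mem_zpowers_of_cyclic {G : Type*} [Group G] [Finite G] {p : ℕ} [Fact p.Prime]
    (hc : ∀ P : Sylow p G, IsCyclic (P : Subgroup G)) {x y : G} (hx : x ^ p = 1) (hy : y ^ p = 1)
    (hxy : x * y = y * x) (hx1 : x ≠ 1) : y ∈ Subgroup.zpowers x := by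
  classical
  have hpx : ∀ {z : G}, z ^ p = 1 → IsPGroup p (Subgroup.zpowers z) := by
    intro z hz
    rintro ⟨_, i, rfl⟩
    refine ⟨1, Subtype.ext ?_⟩
    change (z ^ i) ^ p ^ 1 = 1
    rw [pow_one, ← _root_.zpow_natCast, ← _root_.zpow_mul, mul_comm, _root_.zpow_mul, _root_.zpow_natCast, hz, _root_.one_zpow]
  have h1 : IsPGroup p (Subgroup.zpowers x ⊔ Subgroup.zpowers y : Subgroup G) := by
    refine IsPGroup.to_sup_of_normal_right' (hpx hx) (hpx hy) ?_
    rw [Subgroup.zpowers_le, Subgroup.mem_normalizer_iff]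
    intro h
    constructor
    · rintro ⟨i, rfl⟩
      refine ⟨i, ?_⟩
      have : Commute x (y ^ i) := Commute.zpow_right hxy i
      change y ^ i = x * y ^ i * x⁻¹
      rw [this.eq, mul_inv_cancel_right]
    · rintro ⟨i, hi⟩
      refine ⟨i, ?_⟩
      have h2 : Commute x⁻¹ (y ^ i) := (Commute.zpow_right hxy i).inv_left
      have h3 : h = x⁻¹ * (x * h * x⁻¹) * x := by group
      change y ^ i = h
      have hi' : y ^ i = x * h * x⁻¹ := hi
      rw [h3, ← hi', h2.eq, inv_mul_cancel_right]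
  obtain ⟨P, hP⟩ := h1.exists_le_sylow
  have hxP : x ∈ P := hP (Subgroup.mem_sup_left (Subgroup.mem_zpowers x))
  have hyP : y ∈ P := hP (Subgroup.mem_sup_right (Subgroup.mem_zpowers y))
  have hcyc := hc P
  let X : P := ⟨x, hxP⟩
  let Y : P := ⟨y, hyP⟩
  have hXo : orderOf X = p := by
    apply orderOf_eq_prime
    · exact Subtype.ext hx
    · intro h
      exact hx1 (congrArg Subtype.val h)
  have : Fintype (P : Subgroup G) := Fintype.ofFinite _
  have h2 : (Finset.univ.filter (fun a : (P : Subgroup G) => a ^ p = 1)).card ≤ p :=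
    IsCyclic.card_pow_eq_one_le (Fact.out : p.Prime).pos
  have h3 : (Finset.univ.filter (fun a : (P : Subgroup G) => a ∈ Subgroup.zpowers X)).card = p := by
    refine Eq.trans ?_ hXo
    rw [← Nat.card_zpowers, Nat.card_eq_fintype_card, ← Fintype.card_subtype]
    rfl
  have h4 : (Finset.univ.filter (fun a : (P : Subgroup G) => a ∈ Subgroup.zpowers X)) ⊆
      (Finset.univ.filter (fun a : (P : Subgroup G) => a ^ p = 1)) := by
    intro a ha
    rw [Finset.mem_filter] at ha ⊢
    refine ⟨ha.1, ?_⟩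
    obtain ⟨i, rfl⟩ := ha.2
    change (X ^ i) ^ p = 1
    have hXp : X ^ p = 1 := Subtype.ext hx
    rw [← _root_.zpow_natCast, ← _root_.zpow_mul, mul_comm, _root_.zpow_mul, _root_.zpow_natCast, hXp, _root_.one_zpow]
  have h5 := Finset.eq_of_subset_of_card_le h4 (by rw [h3]; exact h2)
  have h6 : Y ∈ (Finset.univ.filter (fun a : (P : Subgroup G) => a ^ p = 1)) := by
    rw [Finset.mem_filter]
    exact ⟨Finset.mem_univ _, Subtype.ext hy⟩
  rw [← h5, Finset.mem_filter] at h6
  obtain ⟨i, hi⟩ := h6.2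
  exact ⟨i, congrArg Subtype.val hi⟩

variable {F : Type*} [Field F] [Fintype F]

open Cfsg.Agent.LieClassical.HermSiegel in
theorem psu_four (hF : Fintype.card F = 16) : ∃ x y : PSU 3 F 4, x ^ 5 = 1 ∧ y ^ 5 = 1 ∧ x * y = y * x ∧ x ≠ 1 ∧
    y ∉ Subgroup.zpowers x := by
  obtain ⟨z, hz⟩ := exists_root (F := F) 5 3 (by rw [hF])
  have hz5 : z ^ 5 = 1 := by rw [← hz]; exact pow_orderOf_eq_one z
  have hz1 : z ≠ 1 := by
    intro h
    rw [h, orderOf_one] at hz
    norm_num at hz
  have hz0 : z ≠ 0 := by rintro rfl; norm_num at hz5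
  have hk : ∀ k : ℕ, (z ^ k) ^ 5 = 1 := fun k => by rw [← pow_mul, mul_comm, pow_mul, hz5, one_pow]
  have p1 : ∏ i, (![z, z ^ 4, 1] : Fin 3 → F) i = 1 := by
    simp only [Fin.prod_univ_three, cons_val_zero, cons_val_one, cons_val]
    linear_combination hz5
  have q1 : ∀ i, (![z, z ^ 4, 1] : Fin 3 → F) i ^ (4 + 1) = 1 := by
    intro i; fin_cases i
    · exact hz5
    · exact hk 4
    · exact one_pow _
  have p2 : ∏ i, (![1, z, z ^ 4] : Fin 3 → F) i = 1 := by
    simp only [Fin.prod_univ_three, cons_val_zero, cons_val_one, cons_val]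
    linear_combination hz5
  have q2 : ∀ i, (![1, z, z ^ 4] : Fin 3 → F) i ^ (4 + 1) = 1 := by
    intro i; fin_cases i
    · exact one_pow _
    · exact hz5
    · exact hk 4
  set x : SU 3 F 4 := suDiag 4 ![z, z ^ 4, 1] p1 q1 with hx
  set y : SU 3 F 4 := suDiag 4 ![1, z, z ^ 4] p2 q2 with hy
  have mx : mat x = diagonal ![z, z ^ 4, 1] := rfl
  have my : mat y = diagonal ![1, z, z ^ 4] := rfl
  let π := QuotientGroup.mk' (Subgroup.center (SU 3 F 4))
  refine ⟨π x, π y, ?_, ?_, ?_, ?_, ?_⟩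
  · rw [← map_pow, suDiag_pow p1 q1 q1, map_one]
  · rw [← map_pow, suDiag_pow p2 q2 q2, map_one]
  · rw [← map_mul, ← map_mul]
    congr 1
    apply mat_injective
    rw [mat_mul, mat_mul, mx, my, diagonal_mul_diagonal, diagonal_mul_diagonal]
    congr 1
    funext i
    exact mul_comm _ _
  · intro h
    have h1 : x ∈ Subgroup.center (SU 3 F 4) := (QuotientGroup.eq_one_iff x).mp h
    have h2 := diag_eq (le_refl 3) h1 0 2
    change diagonal _ 0 0 = diagonal _ 2 2 at h2
    rw [diagonal_apply_eq, diagonal_apply_eq] at h2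
    exact hz1 h2
  · intro h
    -- `y = x ^ k` modulo the centre
    have h5 : π x ^ 5 = 1 := by rw [← map_pow, suDiag_pow p1 q1 q1, map_one]
    obtain ⟨k, hk'⟩ : ∃ k : ℕ, π x ^ k = π y := by
      have hfin : IsOfFinOrder (π x) := isOfFinOrder_iff_pow_eq_one.mpr ⟨5, by norm_num, h5⟩
      rw [← hfin.mem_powers_iff_mem_zpowers] at h
      exact h
    have h1 : (x ^ k)⁻¹ * y ∈ Subgroup.center (SU 3 F 4) := by
      rw [← QuotientGroup.eq_one_iff]
      change π ((x ^ k)⁻¹ * y) = 1
      rw [map_mul, map_inv, map_pow, hk', inv_mul_cancel]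
    -- write y = x^k * s with s central
    set s := (x ^ k)⁻¹ * y with hs
    have hys : x ^ k * s = y := by rw [hs, mul_inv_cancel_left]
    have h01 := diag_eq (le_refl 3) h1 0 1
    have h02 := diag_eq (le_refl 3) h1 0 2
    change mat s 0 0 = mat s 1 1 at h01
    change mat s 0 0 = mat s 2 2 at h02
    have hm : diagonal ((![z, z ^ 4, 1] : Fin 3 → F) ^ k) * mat s = diagonal ![1, z, z ^ 4] := by
      have e : mat (x ^ k * s) = mat y := congrArg mat hys
      rw [mat_mul, mat_pow, mx, diagonal_pow, my] at e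
      exact e
    have e0 := congrFun (congrFun hm 0) 0
    have e1 := congrFun (congrFun hm 1) 1
    have e2 := congrFun (congrFun hm 2) 2
    rw [diagonal_mul, diagonal_apply_eq] at e0 e1 e2
    simp only [Pi.pow_apply, cons_val_zero, cons_val_one, cons_val] at e0 e1 e2
    rw [← h01] at e1
    rw [← h02, one_pow, one_mul] at e2
    rw [e2] at e0 e1
    -- z^k z^4 = 1, z^(4k) z^4 = z
    have h6 : z ^ k = z := by
      have : z ^ k * z ^ 4 = z * z ^ 4 := by rw [e0, ← pow_succ', hz5]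
      exact mul_right_cancel₀ (pow_ne_zero 4 hz0) this
    rw [← pow_mul, mul_comm 4 k, pow_mul, h6] at e1
    -- z^8 = z
    have h7 : z ^ 3 = z := by
      have : z ^ 4 * z ^ 4 = z ^ 5 * z ^ 3 := by ring
      rw [this, hz5, one_mul] at e1
      exact e1
    have h8 : z ^ 2 = 1 := by
      have : z ^ 2 * z = 1 * z := by rw [← pow_succ, h7, one_mul]
      exact mul_right_cancel₀ hz0 this
    have h9 : orderOf z ∣ 2 := orderOf_dvd_of_pow_eq_one h8
    rw [hz] at h9
    exact absurd (Nat.le_of_dvd (by norm_num) h9) (by norm_num)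

end Four

section Homog
open Cfsg.Agent.H486.Hg

theorem exists_equiv {G : Type*} [Group G] [Finite G] {x y : G} (h : orderOf x = orderOf y) :
    ∃ e : Subgroup.zpowers x ≃* Subgroup.zpowers y, (e ⟨x, Subgroup.mem_zpowers x⟩ : G) = y := by
  have hap : ∀ n : ℕ, zpowersEquivZPowers h ⟨x ^ n, n, _root_.zpow_natCast x n⟩ = ⟨y ^ n, n, _root_.zpow_natCast y n⟩ :=
    fun n => zpowersEquivZPowers_apply h n
  refine ⟨{ zpowersEquivZPowers h with map_mul' := ?_ }, ?_⟩
  · rintro ⟨a, ha⟩ ⟨b, hb⟩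
    obtain ⟨m, rfl⟩ := (isOfFinOrder_of_finite x).mem_powers_iff_mem_zpowers.mpr ha
    obtain ⟨n, rfl⟩ := (isOfFinOrder_of_finite x).mem_powers_iff_mem_zpowers.mpr hb
    have h1 : (⟨(fun k : ℕ => x ^ k) m, ha⟩ : Subgroup.zpowers x) * ⟨(fun k : ℕ => x ^ k) n, hb⟩ =
        ⟨x ^ (m + n), _, _root_.zpow_natCast x (m + n)⟩ := Subtype.ext (pow_add x m n).symm
    change zpowersEquivZPowers h _ = zpowersEquivZPowers h _ * zpowersEquivZPowers h _
    rw [h1, hap, hap, hap]
    exact Subtype.ext (pow_add y m n)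
  · have h1 := hap 1
    have h2 : (⟨x, Subgroup.mem_zpowers x⟩ : Subgroup.zpowers x) = ⟨x ^ 1, ((1 : ℕ) : ℤ), _root_.zpow_natCast x 1⟩ :=
      Subtype.ext (pow_one x).symm
    change ((zpowersEquivZPowers h ⟨x, Subgroup.mem_zpowers x⟩ : Subgroup.zpowers y) : G) = y
    rw [h2, h1]
    exact pow_one y

/-- in a homogeneous group elements of the same order are conjugate under automorphisms -/
theorem exists_aut {G : Type*} [Group G] [Finite G] (hH : Homog G) {x y : G} (h : orderOf x = orderOf y) :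
    ∃ φ : G ≃* G, φ x = y := by
  obtain ⟨e, he⟩ := exists_equiv h
  obtain ⟨φ, hφ⟩ := hH _ _ e
  exact ⟨φ, by rw [← he, ← hφ]⟩

theorem not_a7 {G : Type*} [Group G] [Finite G] (hH : Homog G) (e : G ≃* alternatingGroup (Fin 7)) : False := by
  let x : alternatingGroup (Fin 7) := ⟨c[0, 1, 2], by
    rw [Equiv.Perm.mem_alternatingGroup]; decide⟩
  let y : alternatingGroup (Fin 7) := ⟨c[0, 1, 2] * c[3, 4, 5], by
    rw [Equiv.Perm.mem_alternatingGroup]; decide⟩
  have hx : orderOf x = 3 := orderOf_eq_prime (by decide) (by decide)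
  have hy : orderOf y = 3 := orderOf_eq_prime (by decide) (by decide)
  obtain ⟨φ, hφ⟩ := exists_aut hH (x := e.symm x) (y := e.symm y)
    (by rw [MulEquiv.orderOf_eq, MulEquiv.orderOf_eq, hx, hy])
  let ψ : MulAut (alternatingGroup (Fin (5 + 2))) := (e.symm.trans φ).trans e
  have hψ : ψ x = y := by
    change e (φ (e.symm x)) = y
    rw [hφ, MulEquiv.apply_symm_apply]
  obtain ⟨σ, hσ⟩ := Cfsg.Agent.StandardComponent.AltAut.exists_conj (m := 5) (le_refl 5) ψ
  have h1 := hσ x
  rw [hψ] at h1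
  have h2 : (y : Perm (Fin 7)).support.card = (x : Perm (Fin 7)).support.card := by
    rw [h1]
    exact Equiv.Perm.card_support_conj
  have h3 : (y : Perm (Fin 7)).support.card = 6 := by decide
  have h4 : (x : Perm (Fin 7)).support.card = 3 := by decide
  omega

theorem not_m11 {G : Type*} [Group G] [Finite G] (hH : Homog G) (h : Cfsg.IsM11 G) : False := by
  have hc : Nat.card G = 7920 := h.2
  have : Fact (Nat.Prime 11) := ⟨by norm_num⟩
  obtain ⟨x, hx⟩ := exists_prime_orderOf_dvd_card' (G := G) 11 (by rw [hc]; norm_num)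
  obtain ⟨φ, hφ⟩ := exists_aut hH (x := x) (y := x⁻¹) (by rw [orderOf_inv])
  obtain ⟨g, rfl⟩ := Cfsg.Agent.SectRankFour.AutM11.exists_conj h φ
  refine Cfsg.Agent.SporadicA.M11Sylow.not_isConj_inv h hx ?_
  rw [isConj_iff]
  exact ⟨g, hφ⟩

end Homog

end Cfsg.Agent.H183.HgSmall
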